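import Cfsg.Agent.H62.GTwoSU
import Cfsg.Agent.H638.G2Iso

/-!
# `G₂(8)` contains `(9 × 9) : 3`
-/

set_option autoImplicit false

namespace Cfsg.Agent.H949.E7G.GTwo

open Cfsg Cfsg.Lie Cfsg.Agent.H62.GTwoSU

section

variable {F : Type*} [Field F] [Fintype F]

theorem two_eq_zero (hF : Fintype.card F = 8) : (2 : F) = 0 := by
  obtain ⟨p, hp⟩ := CharP.exists F
  obtain ⟨j, hj1, hj2⟩ := FiniteField.card F p
  have h1 : p ∣ 2 ^ 3 := by
    have : (2 : ℕ) ^ 3 = p ^ (j : ℕ) := by rw [← hj2, hF]; norm_num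
    rw [this]
    exact dvd_pow_self p j.ne_zero
  have h2 := (Nat.prime_dvd_prime_iff_eq hj1 Nat.prime_two).1 (hj1.dvd_of_dvd_pow h1)
  subst h2
  exact CharP.cast_eq_zero F 2

theorem exists_u (hF : Fintype.card F = 8) : ∃ u : F, u ^ 3 = u + 1 := by
  classical
  have h2 := two_eq_zero hF
  obtain ⟨w, hw⟩ : ∃ w : F, w ∉ ({0, 1} : Finset F) := by
    by_contra hcon
    push Not at hcon
    have h3 : (Finset.univ : Finset F) ⊆ {0, 1} := fun x _ => hcon x
    have h4 := Finset.card_le_card h3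
    rw [Finset.card_univ, hF] at h4
    have h5 : ({0, 1} : Finset F).card ≤ 2 := Finset.card_le_two
    omega
  simp only [Finset.mem_insert, Finset.mem_singleton, not_or] at hw
  obtain ⟨h0, h1⟩ := hw
  have h8 : w ^ 8 = w := by
    rw [← hF]
    exact FiniteField.pow_card w
  have h3 : w * ((w - 1) * ((w ^ 3 - w - 1) * (w ^ 3 - w ^ 2 - 1))) = 0 := by
    linear_combination h8 + (-w ^ 7 + w ^ 4) * h2
  rcases mul_eq_zero.1 h3 with h | h
  · exact absurd h h0
  rcases mul_eq_zero.1 h with h | h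
  · exact absurd (sub_eq_zero.1 h) h1
  rcases mul_eq_zero.1 h with h | h
  · exact ⟨w, by linear_combination h⟩
  · -- the inverse of `w`
    refine ⟨w + 1, ?_⟩
    linear_combination h + (2 * w ^ 2 + w) * h2
theorem irr (hF : Fintype.card F = 8) : ∀ r : F, r ^ 2 ≠ -1 + 1 * r := by
  intro r hr
  have h2 := two_eq_zero hF
  have h8 : r ^ 8 = r := by
    rw [← hF]
    exact FiniteField.pow_card r
  have h3 : r ^ 3 = -1 := by linear_combination (r + 1) * hr
  have h5 : r ^ 8 = r ^ 2 := by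
    calc r ^ 8 = (r ^ 3) ^ 2 * r ^ 2 := by ring
      _ = r ^ 2 := by rw [h3]; ring
  have h6 : (1 : F) = 0 := by
    linear_combination hr - h8 + h5
  exact one_ne_zero h6

/-- the matrices of `SU₃` -/
def UU (F : Type*) [Field F] : Subgroup (Matrix.SpecialLinearGroup (Fin 3) (LL F 1)) where
  carrier := {g | star (g : Matrix (Fin 3) (Fin 3) (LL F 1)) * (g : Matrix (Fin 3) (Fin 3) (LL F 1)) = 1}
  mul_mem' {a b} ha hb := by
    show star ((a : Matrix (Fin 3) (Fin 3) (LL F 1)) * (b : Matrix (Fin 3) (Fin 3) (LL F 1))) *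
      ((a : Matrix (Fin 3) (Fin 3) (LL F 1)) * (b : Matrix (Fin 3) (Fin 3) (LL F 1))) = 1
    have ha' : star (a : Matrix (Fin 3) (Fin 3) (LL F 1)) * (a : Matrix (Fin 3) (Fin 3) (LL F 1)) = 1 := ha
    have hb' : star (b : Matrix (Fin 3) (Fin 3) (LL F 1)) * (b : Matrix (Fin 3) (Fin 3) (LL F 1)) = 1 := hb
    rw [star_mul, mul_assoc, ← mul_assoc (star (a : Matrix (Fin 3) (Fin 3) (LL F 1))), ha', one_mul, hb']
  one_mem' := by
    show star (1 : Matrix (Fin 3) (Fin 3) (LL F 1)) * 1 = 1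
    rw [star_one, one_mul]
  inv_mem' {a} ha := by
    have ha' : star (a : Matrix (Fin 3) (Fin 3) (LL F 1)) * (a : Matrix (Fin 3) (Fin 3) (LL F 1)) = 1 := ha
    have h1 : (a : Matrix (Fin 3) (Fin 3) (LL F 1)) * ((a⁻¹ : Matrix.SpecialLinearGroup (Fin 3) (LL F 1)) :
        Matrix (Fin 3) (Fin 3) (LL F 1)) = 1 := by
      have := congrArg (fun g : Matrix.SpecialLinearGroup (Fin 3) (LL F 1) => (g : Matrix (Fin 3) (Fin 3) (LL F 1)))
        (mul_inv_cancel a)
      simpa only [Matrix.SpecialLinearGroup.coe_mul, Matrix.SpecialLinearGroup.coe_one] using this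
    have h2 : ((a⁻¹ : Matrix.SpecialLinearGroup (Fin 3) (LL F 1)) : Matrix (Fin 3) (Fin 3) (LL F 1)) =
        star (a : Matrix (Fin 3) (Fin 3) (LL F 1)) := by
      calc _ = star (a : Matrix (Fin 3) (Fin 3) (LL F 1)) * ((a : Matrix (Fin 3) (Fin 3) (LL F 1)) *
            ((a⁻¹ : Matrix.SpecialLinearGroup (Fin 3) (LL F 1)) : Matrix (Fin 3) (Fin 3) (LL F 1))) := by
            rw [← mul_assoc, ha', one_mul]
        _ = _ := by rw [h1, mul_one]
    show star ((a⁻¹ : Matrix.SpecialLinearGroup (Fin 3) (LL F 1)) : Matrix (Fin 3) (Fin 3) (LL F 1)) *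
      ((a⁻¹ : Matrix.SpecialLinearGroup (Fin 3) (LL F 1)) : Matrix (Fin 3) (Fin 3) (LL F 1)) = 1
    rw [h2, star_star]
    rw [h2] at h1
    exact h1

end

section

variable {F : Type*} [Field F]

/-- the element of order nine -/
def zz (u : F) : LL F 1 := ⟨u ^ 2, u⟩

/-- its inverse -/
def zi (u : F) : LL F 1 := ⟨u ^ 2 + u, -u⟩

theorem star_zz (u : F) : star (zz u) = zi u := by
  unfold zz zi
  ext <;> simp

theorem star_zi (u : F) : star (zi u) = zz u := by
  rw [← star_zz, star_star]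

theorem zz_mul (h2 : (2 : F) = 0) {u : F} (hu : u ^ 3 = u + 1) : zz u * zi u = 1 := by
  unfold zz zi
  refine QuadraticAlgebra.ext ?_ ?_
  · show u ^ 2 * (u ^ 2 + u) + (-1) * u * (-u) = (1 : F)
    linear_combination (u + 1) * hu + (u ^ 2 + u) * h2
  · show u ^ 2 * (-u) + u * (u ^ 2 + u) + 1 * u * (-u) = (0 : F)
    ring

theorem zz_sq (h2 : (2 : F) = 0) {u : F} (hu : u ^ 3 = u + 1) : zz u * zz u = ⟨u, u ^ 2⟩ := by
  unfold zz
  refine QuadraticAlgebra.ext ?_ ?_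
  · show u ^ 2 * u ^ 2 + (-1) * u * u = u
    linear_combination u * hu
  · show u ^ 2 * u + u * u ^ 2 + 1 * u * u = u ^ 2
    linear_combination u ^ 3 * h2

theorem zz_cube (h2 : (2 : F) = 0) {u : F} (hu : u ^ 3 = u + 1) : zz u ^ 3 = ⟨0, 1⟩ := by
  rw [pow_succ, pow_two, zz_sq h2 hu]
  unfold zz
  refine QuadraticAlgebra.ext ?_ ?_
  · show u * u ^ 2 + (-1) * u ^ 2 * u = 0
    ring
  · show u * u + u ^ 2 * u ^ 2 + 1 * u ^ 2 * u = 1
    linear_combination (u + 1) * hu + (u ^ 2 + u) * h2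

theorem zz_nine (h2 : (2 : F) = 0) {u : F} (hu : u ^ 3 = u + 1) : zz u ^ 9 = 1 := by
  rw [show (9 : ℕ) = 3 * 3 from rfl, pow_mul, zz_cube h2 hu]
  rw [pow_succ, pow_two]
  refine QuadraticAlgebra.ext ?_ ?_
  · show (0 * 0 + (-1) * 1 * 1) * 0 + (-1) * (0 * 1 + 1 * 0 + 1 * 1 * 1) * 1 = (1 : F)
    linear_combination -h2
  · show (0 * 0 + (-1) * 1 * 1) * 1 + (0 * 1 + 1 * 0 + 1 * 1 * 1) * 0 + 1 * (0 * 1 + 1 * 0 + 1 * 1 * 1) * 1 = (0 : F)
    ring

/-- a diagonal matrix -/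
def dm (a b c : LL F 1) : Matrix (Fin 3) (Fin 3) (LL F 1) := !![a, 0, 0; 0, b, 0; 0, 0, c]

theorem dm_det (a b c : LL F 1) : (dm a b c).det = a * b * c := by
  rw [dm, Matrix.det_fin_three]
  simp

theorem dm_star (a b c : LL F 1) : star (dm a b c) = dm (star a) (star b) (star c) := by
  unfold dm
  refine Matrix.ext fun i j => ?_
  fin_cases i <;> fin_cases j <;> simp [Matrix.star_apply]

theorem dm_mul (a b c a' b' c' : LL F 1) : dm a b c * dm a' b' c' = dm (a * a') (b * b') (c * c') := by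
  unfold dm
  refine Matrix.ext fun i j => ?_
  fin_cases i <;> fin_cases j <;> simp [Matrix.mul_apply, Fin.sum_univ_three]

theorem dm_one : dm (1 : LL F 1) 1 1 = 1 := by
  unfold dm
  refine Matrix.ext fun i j => ?_
  fin_cases i <;> fin_cases j <;> simp

/-- the rotation -/
def cm : Matrix (Fin 3) (Fin 3) (LL F 1) := !![0, 0, 1; 1, 0, 0; 0, 1, 0]

theorem cm_det : (cm : Matrix (Fin 3) (Fin 3) (LL F 1)).det = 1 := by
  rw [cm, Matrix.det_fin_three]
  simp

theorem cm_star : star (cm : Matrix (Fin 3) (Fin 3) (LL F 1)) * cm = 1 := by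
  unfold cm
  refine Matrix.ext fun i j => ?_
  fin_cases i <;> fin_cases j <;> simp [Matrix.mul_apply, Fin.sum_univ_three, Matrix.star_apply]

theorem cm_dm (a b c : LL F 1) : cm * dm a b c = dm c a b * cm := by
  unfold cm dm
  refine Matrix.ext fun i j => ?_
  fin_cases i <;> fin_cases j <;> simp [Matrix.mul_apply, Fin.sum_univ_three]

end

section

variable {F : Type*} [Field F]

/-- the elements of the group -/
def du (a b c : LL F 1) (h1 : a * b * c = 1) (h2 : star a * a = 1) (h3 : star b * b = 1) (h4 : star c * c = 1) :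
    ↥(UU F) :=
  ⟨⟨dm a b c, by rw [dm_det, h1]⟩, by
    show star (dm a b c) * dm a b c = 1
    rw [dm_star, dm_mul, h2, h3, h4, dm_one]⟩

def cu : ↥(UU F) := ⟨⟨cm, cm_det⟩, cm_star⟩

/-- the matrix -/
def mt : ↥(UU F) →* Matrix (Fin 3) (Fin 3) (LL F 1) where
  toFun g := ((g : Matrix.SpecialLinearGroup (Fin 3) (LL F 1)) : Matrix (Fin 3) (Fin 3) (LL F 1))
  map_one' := rfl
  map_mul' _ _ := rfl

theorem mt_inj : Function.Injective (mt (F := F)) := fun _ _ h => Subtype.ext (Subtype.ext h)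

theorem mt_du (a b c : LL F 1) (h1 h2 h3 h4) : mt (du a b c h1 h2 h3 h4) = dm a b c := rfl

theorem mt_cu : mt (cu : ↥(UU F)) = cm := rfl

theorem exists_uu (h2 : (2 : F) = 0) {u : F} (hu : u ^ 3 = u + 1) : ∃ x c : ↥(UU F), x ^ 9 = 1 ∧
    Commute x (c * x * c⁻¹) ∧ x * (c * x * c⁻¹) * (c * (c * x * c⁻¹) * c⁻¹) = 1 ∧ ¬ Commute c (x ^ 3) := by
  have e1 : zz u * zi u = 1 := zz_mul h2 hu
  have e2 : zi u * zz u = 1 := by rw [mul_comm]; exact e1
  have s1 : star (zz u) * zz u = 1 := by rw [star_zz]; exact e2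
  have s2 : star (zi u) * zi u = 1 := by rw [star_zi]; exact e1
  have s0 : star (1 : LL F 1) * 1 = 1 := by rw [star_one, mul_one]
  let x : ↥(UU F) := du 1 (zz u) (zi u) (by rw [one_mul]; exact e1) s0 s1 s2
  let x' : ↥(UU F) := du (zi u) 1 (zz u) (by rw [mul_one]; exact e2) s2 s0 s1
  let x'' : ↥(UU F) := du (zz u) (zi u) 1 (by rw [mul_one]; exact e1) s1 s2 s0
  have hx' : cu * x * cu⁻¹ = x' := by
    rw [mul_inv_eq_iff_eq_mul]
    apply mt_inj
    rw [map_mul, map_mul, mt_cu, mt_du, mt_du, cm_dm]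
  have hx'' : cu * x' * cu⁻¹ = x'' := by
    rw [mul_inv_eq_iff_eq_mul]
    apply mt_inj
    rw [map_mul, map_mul, mt_cu, mt_du, mt_du, cm_dm]
  refine ⟨x, cu, ?_, ?_, ?_, ?_⟩
  · apply mt_inj
    have h : ∀ n : ℕ, mt (x ^ n) = dm 1 (zz u ^ n) (zi u ^ n) := by
      intro n
      induction n with
      | zero => rw [pow_zero, map_one, pow_zero, pow_zero, dm_one]
      | succ n ih => rw [pow_succ, map_mul, ih, mt_du, dm_mul, mul_one, pow_succ, pow_succ]
    have h9 : zi u ^ 9 = 1 := by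
      have : (zz u * zi u) ^ 9 = 1 := by rw [e1, one_pow]
      rw [mul_pow, zz_nine h2 hu, one_mul] at this
      exact this
    rw [h, zz_nine h2 hu, h9, map_one, dm_one]
  · rw [hx']
    apply mt_inj
    rw [map_mul, map_mul, mt_du, mt_du, dm_mul, dm_mul, e1, mul_one, one_mul, one_mul, mul_one, e2]
  · rw [hx', hx'']
    apply mt_inj
    rw [map_mul, map_mul, map_one, mt_du, mt_du, mt_du, dm_mul, dm_mul, one_mul, mul_one, e2, e1, mul_one, dm_one]
  · intro h
    have h1 : mt (cu * x ^ 3) = mt (x ^ 3 * cu) := congrArg mt h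
    have h3 : mt (x ^ 3) = dm 1 (zz u ^ 3) (zi u ^ 3) := by
      rw [pow_succ, pow_two, map_mul, map_mul, mt_du, dm_mul, dm_mul]
      rw [pow_succ, pow_two, pow_succ, pow_two, one_mul, one_mul]
    rw [map_mul, map_mul, h3, mt_cu, cm_dm] at h1
    have h4 : zz u ^ 3 = 1 := by
      have := congrFun (congrFun h1 2) 1
      simp [dm, cm, Matrix.mul_apply, Fin.sum_univ_three] at this
      have h5 : (zz u * zi u) ^ 3 = 1 := by rw [e1, one_pow]
      rw [mul_pow, ← this, ← pow_add] at h5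
      have h9 := zz_nine h2 hu
      calc zz u ^ 3 = zz u ^ 3 * 1 := (mul_one _).symm
        _ = zz u ^ 3 * zz u ^ (3 + 3) := by rw [h5]
        _ = zz u ^ 9 := by rw [← pow_add]
        _ = 1 := h9
    rw [zz_cube h2 hu] at h4
    have h5 := congrArg QuadraticAlgebra.re h4
    exact zero_ne_one h5

/-- **`G₂(8)` contains the group `(9 × 9) : 3`.** -/
theorem exists_rot [Fintype F] (hF : Fintype.card F = 8) : ∃ x c : ↥(chevG2.group F), x ^ 9 = 1 ∧
    Commute x (c * x * c⁻¹) ∧ x * (c * x * c⁻¹) * (c * (c * x * c⁻¹) * c⁻¹) = 1 ∧ ¬ Commute c (x ^ 3) := by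
  have h2 := two_eq_zero hF
  obtain ⟨u, hu⟩ := exists_u hF
  have hirr : Fact (∀ r : F, r ^ 2 ≠ -1 + 1 * r) := ⟨irr hF⟩
  obtain ⟨f0, hf0⟩ := exists_act (F := F) (n := 1) h2 (mt (F := F)) mt_inj
    (fun g => g.2) (fun g => (g : Matrix.SpecialLinearGroup (Fin 3) (LL F 1)).2)
  obtain ⟨e⟩ := Cfsg.Agent.H638.G2Iso.equiv (F := F)
  obtain ⟨x, c, h3, h4, h5, h6⟩ := exists_uu h2 hu
  let f : ↥(UU F) →* ↥(chevG2.group F) := e.toMonoidHom.comp f0
  have hf : Function.Injective f := e.injective.comp hf0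
  refine ⟨f x, f c, ?_, ?_, ?_, ?_⟩
  · rw [← map_pow, h3, map_one]
  · rw [← map_inv, ← map_mul, ← map_mul]
    exact h4.map f
  · rw [← map_inv, ← map_mul, ← map_mul, ← map_mul, ← map_mul, ← map_mul, ← map_mul, h5, map_one]
  · intro h
    apply h6
    apply hf
    rw [map_mul, map_mul, map_pow]
    exact h

end

end Cfsg.Agent.H949.E7G.GTwo
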