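import Cfsg.Agent.H943.E7V.AdmMain

/-!
# Elements of order 9 of `E₇(2)` on the 56-dimensional module

`alc_spec` : the general principle for tables (any Boolean function of the alcove coordinates);
`counts_nine`, `nine` : elements of order 9: the value at the cube is 2, or (cube; value) is (-25; -1), (-7; -1), (20; 2).
-/

set_option autoImplicit false
set_option maxRecDepth 100000

namespace Cfsg.Agent.H949.E7G.Nine

open Cfsg.Agent.ChevalleyStructure.CoxeterGeom Cfsg.Agent.Tits.Roots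
  Cfsg.Agent.Nodes.RGDChev
open Cfsg.Lie Cfsg.Agent.ChevalleyStructure Cfsg.Agent.ChevalleyStructure.Elts
  Cfsg.Agent.ChevalleyStructure.RootVec Cfsg.Agent.ChevalleyStructure.RootVecTab
  Cfsg.Agent.ChevalleyStructure.NPerm Cfsg.Agent.ChevalleyStructure.CoxeterGeomTypes
open Cfsg.Agent.H944.RootVals Cfsg.Agent.H944.Kac Cfsg.Agent.H944.Tab Cfsg.Agent.H944.E7Two
open Cfsg.Agent.H943.E7V.Block Cfsg.Agent.H943.E7V.Wt Cfsg.Agent.H943.E7V.Alc Cfsg.Agent.H943.E7V.Bra
open Cfsg.Agent.H657 IsLocalRing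

/-- the general principle: a Boolean function of the alcove coordinates which is true for all stable nonzero alcove
vectors -/
theorem alc_spec {N : ℕ} (hN : 1 < N) {f : List ℕ → Bool}
    (hf : allAlc th7 N (fun y => bif invW N y then ((y.all fun x => Nat.beq (x % N) 0) || f y) else true) = true)
    {v : Fin 7 → ZMod N} (hv : v ≠ 0) (hs : Stab (ms56 v)) :
    ∃ Y : List ℕ, ms56 (vecL N Y) = ms56 v ∧ f Y = true := by
  classical
  have hN0 : 0 < N := by omega
  let P : (Fin 7 → ZMod N) → Prop := fun w => ms56 w = ms56 v ∧ w ≠ 0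
  have hPs : ∀ w j, P w → P (srefl chevE7 7 j w) := by
    rintro w j ⟨h1, h2⟩
    refine ⟨by rw [ms56_srefl, h1], fun h => h2 (srefl_eq_zero e7T h)⟩
  obtain ⟨y, ⟨hy, hy0⟩, hθ⟩ := exists_alcove e7T (N := N) hN0 _ _ 36 (by norm_num) theta7
    (by decide) _ pos7 P hPs (v₀ := v) ⟨rfl, hv⟩
  let Y : List ℕ := List.ofFn y
  have hY : ∀ i : Fin 7, Y.getD i 0 = y i := by
    intro i
    rw [List.getD_eq_getElem _ _ (by rw [List.length_ofFn]; exact i.2), List.getElem_ofFn]
  have h1 : dotN th7 Y ≤ N := by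
    rw [dotN_eq 7 th7 Y (by decide)]
    have h2 : ∑ i : Fin 7, th7.getD i 0 * Y.getD i 0 = ∑ i : Fin 7, th7.getD i 0 * y i :=
      Finset.sum_congr rfl fun i _ => by rw [hY]
    rw [h2]
    simp only [Fin.sum_univ_seven, Matrix.cons_val] at hθ ⊢
    simp only [th7, List.getD_cons_zero, List.getD_cons_succ, Fin.val_zero, Fin.val_one, Fin.val_two] at hθ ⊢
    norm_num at hθ ⊢
    omega
  have h2 := allAlc_spec th7 N _ (by decide) hf Y (by simp [Y, th7]) h1
  have h3 : vecL N Y = fun i => ((y i : ℕ) : ZMod N) := by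
    funext i
    unfold vecL
    rw [hY]
  rw [← h3] at hy hy0
  have hs' : Stab (ms56 (vecL N Y)) := by rw [hy]; exact hs
  rw [invW_of hN0 hs', cond_true, Bool.or_eq_true] at h2
  refine ⟨Y, hy, ?_⟩
  rcases h2 with h2 | h2
  · exfalso
    apply hy0
    funext i
    rw [List.all_eq_true] at h2
    have h4 := h2 (Y.getD i 0) (by
      rw [List.getD_eq_getElem _ _ (by rw [List.length_ofFn]; exact i.2)]
      exact List.getElem_mem _)
    rw [Nat.beq_eq] at h4
    show ((Y.getD i 0 : ℕ) : ZMod N) = 0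
    rw [ZMod.natCast_eq_zero_iff]
    exact Nat.dvd_of_mod_eq_zero h4
  · exact h2

/-- the number of values equal to `k` -/
def cntk (N k : ℕ) (y : List ℕ) : ℕ :=
  sumW N (fun t => (bif Nat.beq (t % N) k then 1 else 0) + (bif Nat.beq ((N - t % N) % N) k then 1 else 0)) y

theorem cntk_eq {N : ℕ} (hN : 1 < N) {k : ℕ} (hk : k < N) (y : List ℕ) :
    (ms56 (vecL N y)).count (k : ZMod N) = cntk N k y := by
  classical
  have hN0 : 0 < N := by omega
  have : NeZero N := ⟨hN0.ne'⟩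
  have h1 : ∀ m : Multiset (ZMod N), m.count (k : ZMod N) = (m.map fun a => if a = (k : ZMod N) then 1 else 0).sum := by
    intro m
    induction m using Multiset.induction_on with
    | empty => simp
    | cons a m ih =>
      rw [Multiset.map_cons, Multiset.sum_cons, Multiset.count_cons, ih, add_comm]
      congr 1
      simp only [eq_comm]
  rw [h1, sum_ms56]
  unfold cntk sumW
  refine congrArg List.sum (List.map_congr_left fun w hw => ?_)
  rw [wl_vecL hN0 hw]
  generalize tt N w y = t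
  have h3 : ∀ t : ℕ, ((t : ZMod N) = (k : ZMod N)) ↔ t % N = k := by
    intro t
    have h4 := ZMod.natCast_eq_natCast_iff' t k N
    rw [Nat.mod_eq_of_lt hk] at h4
    exact h4
  have h5 : (-(t : ZMod N)) = (((N - t % N) % N : ℕ) : ZMod N) := by
    rw [ZMod.natCast_mod, Nat.cast_sub (Nat.mod_lt t hN0).le, ZMod.natCast_self, ZMod.natCast_mod, zero_sub]
  have h6 : ∀ a : ℕ, (bif Nat.beq a k then 1 else 0) = (if a = k then 1 else 0 : ℕ) := by
    intro a
    by_cases h : a = k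
    · rw [if_pos h, h]
      have : Nat.beq k k = true := Nat.beq_refl k
      rw [this]; rfl
    · rw [if_neg h]
      have : Nat.beq a k = false := by
        cases hb : Nat.beq a k with
        | false => rfl
        | true => exact absurd (Nat.eq_of_beq_eq_true hb) h
      rw [this]; rfl
  show _ = (bif (t % N).beq k then 1 else 0) + (bif ((N - t % N) % N).beq k then 1 else 0)
  rw [h6, h6, h5]
  simp only [h3, Nat.mod_mod]

/-- the possible numbers of values equal to 1 and 0 modulo 9 -/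
def g9 (a b : ℕ) : Bool :=
  Nat.beq a 0 || Nat.beq a 6 || (Nat.beq a 9 && Nat.beq b 0) || (Nat.beq a 7 && Nat.beq b 4) || (Nat.beq a 4 && Nat.beq b 12)

theorem g9_spec {a b : ℕ} (h : g9 a b = true) : a = 0 ∨ a = 6 ∨ (a = 9 ∧ b = 0) ∨ (a = 7 ∧ b = 4) ∨ (a = 4 ∧ b = 12) := by
  unfold g9 at h
  simp only [Bool.or_eq_true, Bool.and_eq_true, Nat.beq_eq] at h
  tauto

theorem chk9 : allAlc th7 9 (fun y => bif invW 9 y then ((y.all fun x => Nat.beq (x % 9) 0) ||
    g9 (cntk 9 1 y) (cntk 9 0 y)) else true) = true := by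
  decide +kernel

theorem counts_nine {v : Fin 7 → ZMod 9} (hv : v ≠ 0) (hs : Stab (ms56 v)) :
    (ms56 v).count 1 = 0 ∨ (ms56 v).count 1 = 6 ∨ ((ms56 v).count 1 = 9 ∧ (ms56 v).count 0 = 0) ∨
      ((ms56 v).count 1 = 7 ∧ (ms56 v).count 0 = 4) ∨ ((ms56 v).count 1 = 4 ∧ (ms56 v).count 0 = 12) := by
  obtain ⟨Y, h1, h2⟩ := alc_spec (f := fun y => g9 (cntk 9 1 y) (cntk 9 0 y)) (by norm_num) chk9 hv hs
  have h3 := cntk_eq (N := 9) (by norm_num) (k := 1) (by norm_num) Y
  have h4 := cntk_eq (N := 9) (by norm_num) (k := 0) (by norm_num) Y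
  rw [h1] at h3 h4
  rw [Nat.cast_one] at h3
  rw [Nat.cast_zero] at h4
  have h5 := g9_spec h2
  rw [← h3, ← h4] at h5
  exact h5

theorem gen9 : Gen 9 := by
  have h : ∀ u : ZMod 9, IsUnit u → ∃ i < 6, u = 2 ^ i ∨ u = -2 ^ i := by decide +kernel
  exact fun u hu => (h u hu).imp fun i hi => hi.2

set_option maxHeartbeats 1000000 in
/-- the sums over a stable multiset modulo 9 -/
theorem sm_nine {m : Multiset (ZMod 9)} (h : Stb m) {ξ : ℂ} (hξ : IsPrimitiveRoot ξ 9) :
    sm ξ m = (m.count 0 : ℂ) - m.count 3 ∧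
      sm ξ (m.map fun a => 3 * a) = (m.count 0 : ℂ) + 2 * m.count 3 - 3 * m.count 1 ∧
      (Multiset.card m : ℂ) = m.count 0 + 6 * m.count 1 + 2 * m.count 3 := by
  classical
  have hc : ∀ (u a b : ZMod 9), IsUnit u → u * a = b → (m.count b : ℂ) = (m.count a : ℂ) := by
    rintro u a b hu rfl
    rw [h.count gen9 hu]
  have u2 : IsUnit (2 : ZMod 9) := by decide +kernel
  have u4 : IsUnit (4 : ZMod 9) := by decide +kernel
  have u5 : IsUnit (5 : ZMod 9) := by decide +kernel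
  have u7 : IsUnit (7 : ZMod 9) := by decide +kernel
  have u8 : IsUnit (8 : ZMod 9) := by decide +kernel
  have e1 : ξ ^ 3 ≠ 1 := hξ.pow_ne_one_of_pos_of_lt (by norm_num) (by norm_num)
  have e0 : ξ ^ 9 = 1 := hξ.pow_eq_one
  have f1 : 1 + ξ ^ 3 + ξ ^ 6 = 0 := by
    have : (ξ ^ 3 - 1) * (1 + ξ ^ 3 + ξ ^ 6) = 0 := by linear_combination e0
    exact (mul_eq_zero.1 this).resolve_left (sub_ne_zero.2 e1)
  have g2 := hc 2 1 2 u2 (by decide)
  have g4 := hc 4 1 4 u4 (by decide)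
  have g5 := hc 5 1 5 u5 (by decide)
  have g7 := hc 7 1 7 u7 (by decide)
  have g8 := hc 8 1 8 u8 (by decide)
  have g6 := hc 2 3 6 u2 (by decide)
  have w0 : (0 : ZMod 9).val = 0 := rfl
  have w1 : (1 : ZMod 9).val = 1 := rfl
  have w2 : (2 : ZMod 9).val = 2 := rfl
  have w3 : (3 : ZMod 9).val = 3 := rfl
  have w4 : (4 : ZMod 9).val = 4 := rfl
  have w5 : (5 : ZMod 9).val = 5 := rfl
  have w6 : (6 : ZMod 9).val = 6 := rfl
  have w7 : (7 : ZMod 9).val = 7 := rfl
  have w8 : (8 : ZMod 9).val = 8 := rfl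
  refine ⟨?_, ?_, ?_⟩
  · rw [sm_eq, sum_range_zmod]
    simp only [Finset.sum_range_succ, Finset.sum_range_zero, zero_add, Nat.cast_ofNat, Nat.cast_zero, Nat.cast_one]
    rw [g2, g4, g5, g7, g8, g6, w0, w1, w2, w3, w4, w5, w6, w7, w8]
    linear_combination (m.count 1 : ℂ) * (ξ + ξ ^ 2) * f1 + (m.count 3 : ℂ) * f1
  · have h1 : sm ξ (m.map fun a => 3 * a) = ∑ u : ZMod 9, (m.count u : ℂ) * ξ ^ (3 * u).val := by
      unfold sm
      rw [Multiset.map_map, Finset.sum_multiset_map_count]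
      simp only [nsmul_eq_mul]
      refine Finset.sum_subset (Finset.subset_univ _) fun u _ hu => ?_
      rw [Multiset.mem_toFinset, ← Multiset.count_eq_zero] at hu
      rw [hu, Nat.cast_zero, zero_mul]
    rw [h1, sum_range_zmod]
    simp only [Finset.sum_range_succ, Finset.sum_range_zero, zero_add, Nat.cast_ofNat, Nat.cast_zero, Nat.cast_one]
    have v0 : (3 * 0 : ZMod 9).val = 0 := rfl
    have v1 : (3 * 1 : ZMod 9).val = 3 := rfl
    have v2 : (3 * 2 : ZMod 9).val = 6 := rfl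
    have v3 : (3 * 3 : ZMod 9).val = 0 := rfl
    have v4 : (3 * 4 : ZMod 9).val = 3 := rfl
    have v5 : (3 * 5 : ZMod 9).val = 6 := rfl
    have v6 : (3 * 6 : ZMod 9).val = 0 := rfl
    have v7 : (3 * 7 : ZMod 9).val = 3 := rfl
    have v8 : (3 * 8 : ZMod 9).val = 6 := rfl
    rw [g2, g4, g5, g7, g8, g6, v0, v1, v2, v3, v4, v5, v6, v7, v8]
    linear_combination 3 * (m.count 1 : ℂ) * f1
  · rw [card_eq, sum_range_zmod]
    simp only [Finset.sum_range_succ, Finset.sum_range_zero, zero_add, Nat.cast_ofNat, Nat.cast_zero, Nat.cast_one]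
    rw [g2, g4, g5, g7, g8, g6]
    ring

open Cfsg.Agent.H943.E7V.AdmMain

attribute [local instance] Above.isAlgClosed

variable {V : ValuationSubring ℂ} [CharP (ResidueField V) 2]

/-- **Elements of order 9.** -/
theorem nine {x : ↥(chevE7.group (ZMod 2))} (hx : x ^ 9 = 1) (h3 : x ^ 3 ≠ 1) :
    bc 2 (sg V) (x ^ 3) = 2 ∨ (bc 2 (sg V) (x ^ 3) = -25 ∧ bc 2 (sg V) x = -1) ∨
      (bc 2 (sg V) (x ^ 3) = -7 ∧ bc 2 (sg V) x = -1) ∨ (bc 2 (sg V) (x ^ 3) = 20 ∧ bc 2 (sg V) x = 2) := by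
  obtain ⟨v, h1, h2, ξ, hξ, h4⟩ := bc_sg (V := V) (by norm_num) (by norm_num) hx
  have hv : v ≠ 0 := by
    intro h0
    rw [h1 h0, one_pow] at h3
    exact h3 rfl
  obtain ⟨s1, s2, s3⟩ := sm_nine h2 hξ
  rw [card_ms56] at s3
  have h5 := h4 1
  simp only [pow_one, Nat.cast_one, one_mul, Multiset.map_id'] at h5
  have h6 := h4 3
  rw [Nat.cast_ofNat] at h6
  have ho : orderOf (x ^ 3) = 3 := by
    refine orderOf_eq_prime ?_ h3
    rw [← pow_mul]
    exact hx
  have h8 := (vals (V := V)).three (x ^ 3) ho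
  rw [h6, s2] at h8
  rw [h5, h6, s1, s2]
  generalize hc0 : (ms56 v).count 0 = c0 at *
  generalize hc1 : (ms56 v).count 1 = c1 at *
  generalize hc3 : (ms56 v).count 3 = c3 at *
  have h7 := counts_nine hv h2.dbl
  rw [hc0, hc1] at h7
  rcases h7 with h7 | h7 | ⟨h7, h9⟩ | ⟨h7, h9⟩ | ⟨h7, h9⟩
  · exfalso
    subst h7
    push_cast at s3 h8
    have h9 : (c0 : ℂ) + 2 * (c3 : ℂ) - 3 * 0 = 56 := by
      linear_combination -s3
    rw [h9] at h8
    norm_num at h8
  · left
    subst h7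
    push_cast at s3 ⊢
    linear_combination -s3
  · right; left
    subst h7 h9
    push_cast at s3 ⊢
    refine ⟨?_, ?_⟩
    · linear_combination -s3
    · linear_combination (1 / 2 : ℂ) * s3
  · right; right; left
    subst h7 h9
    push_cast at s3 ⊢
    refine ⟨?_, ?_⟩
    · linear_combination -s3
    · linear_combination (1 / 2 : ℂ) * s3
  · right; right; right
    subst h7 h9
    push_cast at s3 ⊢
    refine ⟨?_, ?_⟩
    · linear_combination -s3
    · linear_combination (1 / 2 : ℂ) * s3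

/-- the value does not depend on the generator -/
theorem bc_unit {x : ↥(chevE7.group (ZMod 2))} (hx : x ^ 9 = 1) {j : ℕ} (hj : Nat.Coprime j 9) :
    bc 2 (sg V) (x ^ j) = bc 2 (sg V) x :=
  bc_gen (by norm_num) (by norm_num) gen9 hx hj

end Cfsg.Agent.H949.E7G.Nine
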