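import Cfsg.Agent.H949.E7G.Nine
import Cfsg.Agent.H699.IBrGen
import Cfsg.Agent.CharDeep.LinearChar

/-!
# `E₇(2)` has no subgroup `(9 × 9) : 3` as in `SU₃(8)`

`no_rot` : there are no `x`, `c` in `E₇(2)` with `x ^ 9 = 1`, `x` commuting with `c x c⁻¹`, `x (c x c⁻¹) (c² x c⁻²) = 1` and
`x ^ 3` not commuting with `c`.
-/

set_option autoImplicit false
set_option maxRecDepth 100000
set_option linter.unusedSimpArgs false

namespace Cfsg.Agent.H949.E7G.Rot

open Cfsg Cfsg.Lie Cfsg.Agent.H657 Cfsg.Agent.H943.E7V.AdmMain Cfsg.Agent.H949.E7G.Nine IsLocalRing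
open scoped ComplexConjugate

/-! ### the torus -/

abbrev Z2 : Type := ZMod 9 × ZMod 9

/-- the rotation -/
def rot (p : Z2) : Z2 := (-p.2, p.1 - p.2)

def clsT : List ℕ := [0, 4, 4, 2, 4, 4, 2, 4, 4, 4, 4, 3, 5, 5, 3, 6, 6, 3, 4, 3, 4, 6, 3, 6, 5, 3, 5, 2, 6, 5, 2, 6,
  5, 1, 6, 5, 4, 6, 3, 5, 4, 3, 6, 5, 3, 4, 3, 5, 6, 3, 4, 5, 3, 6, 2, 5, 6, 1, 5, 6, 2, 5, 6, 4, 5, 3, 5, 6, 3, 6, 4,
  3, 4, 3, 6, 6, 3, 5, 5, 3, 4]

/-- the class of an element -/
def cls (p : Z2) : ℕ := clsT.getD (9 * p.1.val + p.2.val) 0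

def rep (c : ℕ) : Z2 := [((0 : ZMod 9), (0 : ZMod 9)), (3, 6), (3, 0), (1, 8), (1, 0), (1, 3), (1, 6)].getD c (0, 0)

theorem cls_spec : ∀ p : Z2, ∃ u ∈ [1, 2, 4, 5, 7, 8], ∃ i ∈ [0, 1, 2],
    p = ((u : ℕ) : ZMod 9) • (rot^[i] (rep (cls p))) := by
  decide +kernel

theorem ms3 : (Finset.univ : Finset Z2).val.map (fun p => (cls p, 2 * p.1 - p.2)) =
    (([(0, 0)] ++ List.replicate 2 (1, 0) ++ List.replicate 3 (2, 3) ++ List.replicate 3 (2, 6) ++
      List.replicate 6 (3, 0) ++ List.replicate 6 (3, 3) ++ List.replicate 6 (3, 6) ++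
      List.replicate 3 (4, 1) ++ List.replicate 3 (4, 2) ++ List.replicate 3 (4, 4) ++
      List.replicate 3 (4, 5) ++ List.replicate 3 (4, 7) ++ List.replicate 3 (4, 8) ++
      List.replicate 3 (5, 1) ++ List.replicate 3 (5, 2) ++ List.replicate 3 (5, 4) ++
      List.replicate 3 (5, 5) ++ List.replicate 3 (5, 7) ++ List.replicate 3 (5, 8) ++
      List.replicate 3 (6, 1) ++ List.replicate 3 (6, 2) ++ List.replicate 3 (6, 4) ++
      List.replicate 3 (6, 5) ++ List.replicate 3 (6, 7) ++ List.replicate 3 (6, 8) : List (ℕ × ZMod 9)) :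
      Multiset (ℕ × ZMod 9)) := by
  decide +kernel

theorem ms2 : (Finset.univ : Finset Z2).val.map (fun p => (cls p, 3 * p.1)) =
    (([(0, 0)] ++ List.replicate 2 (1, 0) ++ List.replicate 6 (2, 0) ++ List.replicate 9 (3, 3) ++
      List.replicate 9 (3, 6) ++
      List.replicate 6 (4, 0) ++ List.replicate 6 (4, 3) ++ List.replicate 6 (4, 6) ++
      List.replicate 6 (5, 0) ++ List.replicate 6 (5, 3) ++ List.replicate 6 (5, 6) ++
      List.replicate 6 (6, 0) ++ List.replicate 6 (6, 3) ++ List.replicate 6 (6, 6) : List (ℕ × ZMod 9)) :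
      Multiset (ℕ × ZMod 9)) := by
  decide +kernel

theorem ms1 : (Finset.univ : Finset Z2).val.map (fun p => (min (cls p) 4, p.1)) =
    (([(0, 0)] ++ List.replicate 1 (1, 3) ++ List.replicate 1 (1, 6) ++ List.replicate 2 (2, 0) ++
      List.replicate 2 (2, 3) ++ List.replicate 2 (2, 6) ++
      List.replicate 3 (3, 1) ++ List.replicate 3 (3, 2) ++ List.replicate 3 (3, 4) ++
      List.replicate 3 (3, 5) ++ List.replicate 3 (3, 7) ++ List.replicate 3 (3, 8) ++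
      List.replicate 6 (4, 0) ++ List.replicate 6 (4, 1) ++ List.replicate 6 (4, 2) ++
      List.replicate 6 (4, 3) ++ List.replicate 6 (4, 4) ++ List.replicate 6 (4, 5) ++
      List.replicate 6 (4, 6) ++ List.replicate 6 (4, 7) ++ List.replicate 6 (4, 8) : List (ℕ × ZMod 9)) :
      Multiset (ℕ × ZMod 9)) := by
  decide +kernel

theorem gen_z : ∀ p : Z2, p ≠ 0 → ∃ i j : ZMod 9, i • p + j • rot p = (3, 6) := by
  decide +kernel

theorem sum_cls {ι : Type*} [Fintype ι] {g : ι → ℕ × ZMod 9} {L : List (ℕ × ZMod 9)}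
    (h : (Finset.univ : Finset ι).val.map g = (L : Multiset (ℕ × ZMod 9))) (f : ℕ × ZMod 9 → ℂ) :
    ∑ p, f (g p) = (L.map f).sum := by
  have h1 := congrArg (fun m : Multiset (ℕ × ZMod 9) => (m.map f).sum) h
  simp only [Multiset.map_map, Multiset.map_coe, Multiset.sum_coe] at h1
  exact h1

section

variable {G : Type*} [Group G] {x x' : G}

/-- the homomorphism from `9 × 9` -/
def phi (hx : x ^ 9 = 1) (hx' : x' ^ 9 = 1) (hc : Commute x x') : Multiplicative Z2 →* G where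
  toFun p := x ^ (Multiplicative.toAdd p).1.val * x' ^ (Multiplicative.toAdd p).2.val
  map_one' := by
    show x ^ (0 : ZMod 9).val * x' ^ (0 : ZMod 9).val = 1
    simp
  map_mul' p q := by
    show x ^ ((Multiplicative.toAdd p).1 + (Multiplicative.toAdd q).1).val *
      x' ^ ((Multiplicative.toAdd p).2 + (Multiplicative.toAdd q).2).val = _
    have h : ∀ {y : G}, y ^ 9 = 1 → ∀ a b : ZMod 9, y ^ (a + b).val = y ^ a.val * y ^ b.val := by
      intro y hy a b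
      rw [ZMod.val_add, ← pow_eq_pow_mod _ hy, pow_add]
    rw [h hx, h hx']
    have h2 := (hc.pow_pow (Multiplicative.toAdd q).1.val (Multiplicative.toAdd p).2.val).eq
    rw [mul_assoc, mul_assoc]
    congr 1
    rw [← mul_assoc, h2, mul_assoc]

theorem phi_apply (hx : x ^ 9 = 1) (hx' : x' ^ 9 = 1) (hc : Commute x x') (m n : ℤ) :
    phi hx hx' hc (Multiplicative.ofAdd ((m : ZMod 9), (n : ZMod 9))) = x ^ m * x' ^ n := by
  show x ^ (m : ZMod 9).val * x' ^ (n : ZMod 9).val = _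
  have h : ∀ {y : G}, y ^ 9 = 1 → ∀ m : ℤ, y ^ (m : ZMod 9).val = y ^ m := by
    intro y hy m
    rw [← zpow_natCast, ZMod.val_intCast]
    have h1 : y ^ (9 : ℤ) = 1 := by
      have := hy
      rw [← zpow_natCast] at this
      exact this
    conv_rhs => rw [← Int.emod_add_mul_ediv m 9]
    rw [zpow_add, zpow_mul, h1, one_zpow, mul_one]
    rfl
  rw [h hx, h hx']

end

/-- the torus and the rotation -/
theorem setup {G : Type*} [Group G] {x c : G} (hx : x ^ 9 = 1) (hcomm : Commute x (c * x * c⁻¹))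
    (hprod : x * (c * x * c⁻¹) * (c * (c * x * c⁻¹) * c⁻¹) = 1) (hne : ¬ Commute c (x ^ 3)) :
    ∃ f : Multiplicative Z2 →* G, (∀ p, f (Multiplicative.ofAdd (rot p)) = c * f (Multiplicative.ofAdd p) * c⁻¹) ∧
      (∀ p : Z2, p ≠ 0 → f (Multiplicative.ofAdd p) ≠ 1) := by
  obtain ⟨x', hx'def⟩ : ∃ x', x' = c * x * c⁻¹ := ⟨_, rfl⟩
  rw [← hx'def] at hcomm hprod
  have hx' : x' ^ 9 = 1 := by rw [hx'def, conj_pow, hx, mul_one, mul_inv_cancel]
  have h2 : c * x' * c⁻¹ = x⁻¹ * x'⁻¹ := by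
    have h3 : c * x' * c⁻¹ = (x * x')⁻¹ := eq_inv_of_mul_eq_one_right hprod
    rw [h3, hcomm.eq, mul_inv_rev]
  have hrot : ∀ p : Z2, phi hx hx' hcomm (Multiplicative.ofAdd (rot p)) =
      c * phi hx hx' hcomm (Multiplicative.ofAdd p) * c⁻¹ := by
    intro p
    obtain ⟨a, b⟩ := p
    obtain ⟨m, rfl⟩ := ZMod.intCast_surjective a
    obtain ⟨n, rfl⟩ := ZMod.intCast_surjective b
    have h1 : rot ((m : ZMod 9), (n : ZMod 9)) = (((-n : ℤ) : ZMod 9), ((m - n : ℤ) : ZMod 9)) := by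
      unfold rot
      push_cast
      rfl
    rw [h1, phi_apply, phi_apply]
    calc x ^ (-n) * x' ^ (m - n) = x' ^ m * (x⁻¹ * x'⁻¹) ^ n := by
          rw [(hcomm.inv_inv).mul_zpow, inv_zpow', inv_zpow', ← mul_assoc, ← (hcomm.zpow_zpow (-n) m).eq, mul_assoc,
            ← zpow_add, sub_eq_add_neg]
      _ = (c * x * c⁻¹) ^ m * (c * x' * c⁻¹) ^ n := by rw [h2, ← hx'def]
      _ = c * (x ^ m * x' ^ n) * c⁻¹ := by
          rw [conj_zpow, conj_zpow]
          group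
  have hz : phi hx hx' hcomm (Multiplicative.ofAdd ((3 : ZMod 9), (6 : ZMod 9))) ≠ 1 := by
    intro h
    apply hne
    have h1 := phi_apply hx hx' hcomm 3 (-3)
    have e : (((3 : ℤ) : ZMod 9), ((-3 : ℤ) : ZMod 9)) = ((3 : ZMod 9), (6 : ZMod 9)) := by decide
    rw [e, h] at h1
    have h2 : x' ^ (3 : ℤ) = x ^ (3 : ℤ) := by
      rw [zpow_neg, eq_comm, mul_inv_eq_one] at h1
      exact h1.symm
    rw [hx'def, conj_zpow] at h2
    have h3 : c * x ^ (3 : ℤ) = x ^ (3 : ℤ) * c := by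
      conv_rhs => rw [← h2]
      group
    have e3 : x ^ (3 : ℤ) = x ^ (3 : ℕ) := zpow_natCast x 3
    rw [e3] at h3
    exact h3
  refine ⟨phi hx hx' hcomm, hrot, fun p hp h => ?_⟩
  obtain ⟨i, j, hij⟩ := gen_z p hp
  apply hz
  rw [← hij]
  have h1 : phi hx hx' hcomm (Multiplicative.ofAdd (rot p)) = 1 := by rw [hrot, h, mul_one, mul_inv_cancel]
  have h2 : ∀ (i : ZMod 9) (q : Z2), phi hx hx' hcomm (Multiplicative.ofAdd q) = 1 →
      phi hx hx' hcomm (Multiplicative.ofAdd (i • q)) = 1 := by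
    intro i q hq
    rw [← ZMod.natCast_zmod_val i, Nat.cast_smul_eq_nsmul, ofAdd_nsmul, map_pow, hq, one_pow]
  rw [ofAdd_add, map_mul, h2 i p h, h2 j _ h1, one_mul]

/-- positivity for a character of `9 × 9` -/
theorem pos {Θ : Multiplicative Z2 → ℂ} (hΘ : IsCharacter (Multiplicative Z2) Θ) {ξ : ℂ} (hξ9 : ξ ^ 9 = 1)
    (l : Z2 →+ ZMod 9) : ∃ n : ℕ, ∑ p : Z2, Θ (Multiplicative.ofAdd p) * ξ ^ (l p).val = n * 81 := by
  classical
  let χ0 : Multiplicative Z2 →* ℂ :=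
    { toFun := fun p => ξ ^ (l (- Multiplicative.toAdd p)).val
      map_one' := by simp
      map_mul' := fun p q => by
        show ξ ^ (l (-(Multiplicative.toAdd p + Multiplicative.toAdd q))).val = _
        rw [neg_add, map_add, ZMod.val_add, ← pow_eq_pow_mod _ hξ9, pow_add] }
  have h1 := CharDeep.LinearChar.isCharacter_of_hom χ0.toHomUnits
  obtain ⟨n, hn⟩ := Characters.Core.classInner_isNat hΘ h1
  refine ⟨n, ?_⟩
  rw [← hn]
  unfold classInner
  have h2 : (Nat.card (Multiplicative Z2) : ℂ) = 81 := by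
    rw [Nat.card_eq_fintype_card, Fintype.card_multiplicative, Fintype.card_prod, ZMod.card]
    norm_num
  rw [h2]
  have h3 : ∀ g : Multiplicative Z2, Θ g * conj ((χ0.toHomUnits g : ℂˣ) : ℂ) =
      Θ g * ξ ^ (l (Multiplicative.toAdd g)).val := by
    intro g
    have h4 := Characters.Core.isCharacter_apply_inv h1 g
    rw [← h4]
    congr 1
    show ξ ^ (l (- -Multiplicative.toAdd g)).val = _
    rw [neg_neg]
  rw [Finset.sum_congr rfl fun g _ => h3 g]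
  have h5 : ∑ g : Multiplicative Z2, Θ g * ξ ^ (l (Multiplicative.toAdd g)).val =
      ∑ p : Z2, Θ (Multiplicative.ofAdd p) * ξ ^ (l p).val := by
    exact Fintype.sum_equiv Multiplicative.toAdd _ _ fun g => rfl
  rw [h5]
  ring

section Arith

variable {F : Z2 → ℂ} {ξ : ℂ}

theorem w_val : (0 : ZMod 9).val = 0 ∧ (1 : ZMod 9).val = 1 ∧ (2 : ZMod 9).val = 2 ∧ (3 : ZMod 9).val = 3 ∧
    (4 : ZMod 9).val = 4 ∧ (5 : ZMod 9).val = 5 ∧ (6 : ZMod 9).val = 6 ∧ (7 : ZMod 9).val = 7 ∧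
    (8 : ZMod 9).val = 8 := ⟨rfl, rfl, rfl, rfl, rfl, rfl, rfl, rfl, rfl⟩

theorem r_val : rep 0 = (0, 0) ∧ rep 1 = (3, 6) ∧ rep 2 = (3, 0) ∧ rep 3 = (1, 8) ∧ rep 4 = (1, 0) ∧ rep 5 = (1, 3) ∧
    rep 6 = (1, 6) := ⟨rfl, rfl, rfl, rfl, rfl, rfl, rfl⟩

theorem sum3 (hF0 : F (0, 0) = 56) (hFrep : ∀ p, F p = F (rep (cls p))) (hf1 : 1 + ξ ^ 3 + ξ ^ 6 = 0) :
    ∑ p : Z2, F p * ξ ^ (2 * p.1 - p.2).val = 56 - 3 * F (3, 0) + 2 * F (3, 6) := by
  obtain ⟨w0, w1, w2, w3, w4, w5, w6, w7, w8⟩ := w_val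
  obtain ⟨r0, r1, r2, r3, r4, r5, r6⟩ := r_val
  have h1 : ∀ p : Z2, F p * ξ ^ (2 * p.1 - p.2).val =
      (fun q : ℕ × ZMod 9 => F (rep q.1) * ξ ^ q.2.val) (cls p, 2 * p.1 - p.2) := by
    intro p
    show _ = F (rep (cls p)) * _
    rw [← hFrep]
  rw [Finset.sum_congr rfl fun p _ => h1 p]
  refine (sum_cls ms3 (fun q : ℕ × ZMod 9 => F (rep q.1) * ξ ^ q.2.val)).trans ?_
  simp only [List.map_append, List.sum_append, List.map_replicate, List.sum_replicate, List.map_cons, List.map_nil,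
    List.sum_cons, List.sum_nil, r0, r1, r2, r3, r4, r5, r6, w0, w1, w2, w3, w4, w5, w6, w7, w8, hF0, nsmul_eq_mul]
  push_cast
  linear_combination (3 * F (3, 0) + 6 * F (1, 8) + 3 * (ξ + ξ ^ 2) * (F (1, 0) + F (1, 3) + F (1, 6))) * hf1

theorem sum2 (hF0 : F (0, 0) = 56) (hFrep : ∀ p, F p = F (rep (cls p))) (hf1 : 1 + ξ ^ 3 + ξ ^ 6 = 0) :
    ∑ p : Z2, F p * ξ ^ (3 * p.1).val = 56 + 6 * F (3, 0) + 2 * F (3, 6) - 9 * F (1, 8) := by
  obtain ⟨w0, w1, w2, w3, w4, w5, w6, w7, w8⟩ := w_val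
  obtain ⟨r0, r1, r2, r3, r4, r5, r6⟩ := r_val
  have h1 : ∀ p : Z2, F p * ξ ^ (3 * p.1).val =
      (fun q : ℕ × ZMod 9 => F (rep q.1) * ξ ^ q.2.val) (cls p, 3 * p.1) := by
    intro p
    show _ = F (rep (cls p)) * _
    rw [← hFrep]
  rw [Finset.sum_congr rfl fun p _ => h1 p]
  refine (sum_cls ms2 (fun q : ℕ × ZMod 9 => F (rep q.1) * ξ ^ q.2.val)).trans ?_
  simp only [List.map_append, List.sum_append, List.map_replicate, List.sum_replicate, List.map_cons, List.map_nil,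
    List.sum_cons, List.sum_nil, r0, r1, r2, r3, r4, r5, r6, w0, w1, w2, w3, w4, w5, w6, w7, w8, hF0, nsmul_eq_mul]
  push_cast
  linear_combination (9 * F (1, 8) + 6 * (F (1, 0) + F (1, 3) + F (1, 6))) * hf1

theorem cls_le : ∀ p : Z2, cls p ≤ 6 := by decide +kernel

theorem sum1 (hF0 : F (0, 0) = 56) (hFrep : ∀ p, F p = F (rep (cls p))) (hf1 : 1 + ξ ^ 3 + ξ ^ 6 = 0) {w : ℂ}
    (hw4 : F (1, 0) = w) (hw5 : F (1, 3) = w) (hw6 : F (1, 6) = w) :
    ∑ p : Z2, F p * ξ ^ (p.1).val = 56 - F (3, 6) := by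
  obtain ⟨w0, w1, w2, w3, w4, w5, w6, w7, w8⟩ := w_val
  obtain ⟨r0, r1, r2, r3, r4, r5, r6⟩ := r_val
  have h1 : ∀ p : Z2, F p * ξ ^ (p.1).val =
      (fun q : ℕ × ZMod 9 => F (rep q.1) * ξ ^ q.2.val) (min (cls p) 4, p.1) := by
    intro p
    show _ = F (rep (min (cls p) 4)) * _
    have h2 : F (rep (min (cls p) 4)) = F p := by
      rw [hFrep p]
      have h3 := cls_le p
      have h4 : cls p ≤ 4 ∨ cls p = 5 ∨ cls p = 6 := by omega
      rcases h4 with h4 | h4 | h4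
      · rw [min_eq_left h4]
      · rw [h4]
        show F (rep 4) = F (rep 5)
        rw [r4, r5, hw4, hw5]
      · rw [h4]
        show F (rep 4) = F (rep 6)
        rw [r4, r6, hw4, hw6]
    rw [h2]
  rw [Finset.sum_congr rfl fun p _ => h1 p]
  refine (sum_cls ms1 (fun q : ℕ × ZMod 9 => F (rep q.1) * ξ ^ q.2.val)).trans ?_
  simp only [List.map_append, List.sum_append, List.map_replicate, List.sum_replicate, List.map_cons, List.map_nil,
    List.sum_cons, List.sum_nil, r0, r1, r2, r3, r4, r5, r6, w0, w1, w2, w3, w4, w5, w6, w7, w8, hF0, nsmul_eq_mul,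
    hw4]
  push_cast
  linear_combination (F (3, 6) + 2 * F (3, 0) + 3 * F (1, 8) * (ξ + ξ ^ 2) + 6 * w * (1 + ξ + ξ ^ 2)) * hf1

theorem key (n : ℕ) (r : ℤ) (h : (n : ℂ) * 81 = r) : (n : ℤ) * 81 = r := by exact_mod_cast h

/-- the arithmetic -/
theorem arith (hF0 : F (0, 0) = 56) (hFrep : ∀ p, F p = F (rep (cls p))) (hf1 : 1 + ξ ^ 3 + ξ ^ 6 = 0)
    (hpos : ∀ l : Z2 →+ ZMod 9, ∃ n : ℕ, ∑ p : Z2, F p * ξ ^ (l p).val = n * 81)
    (hnine : ∀ p : Z2, (3 : ZMod 9) • p ≠ 0 → F ((3 : ZMod 9) • p) = 2 ∨ (F ((3 : ZMod 9) • p) = -25 ∧ F p = -1) ∨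
      (F ((3 : ZMod 9) • p) = -7 ∧ F p = -1) ∨ (F ((3 : ZMod 9) • p) = 20 ∧ F p = 2)) : False := by
  obtain ⟨n3, hn3⟩ := hpos ((AddMonoidHom.mulLeft (2 : ZMod 9)).comp (AddMonoidHom.fst _ _) - AddMonoidHom.snd _ _)
  have h3 : (n3 : ℂ) * 81 = 56 - 3 * F (3, 0) + 2 * F (3, 6) := by
    rw [← hn3, ← sum3 hF0 hFrep hf1]
    rfl
  obtain ⟨n2, hn2⟩ := hpos ((AddMonoidHom.mulLeft (3 : ZMod 9)).comp (AddMonoidHom.fst _ _))
  have h2 : (n2 : ℂ) * 81 = 56 + 6 * F (3, 0) + 2 * F (3, 6) - 9 * F (1, 8) := by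
    rw [← hn2, ← sum2 hF0 hFrep hf1]
    rfl
  obtain ⟨n1, hn1⟩ := hpos (AddMonoidHom.fst _ _)
  have h1 : ∀ w : ℂ, F (1, 0) = w → F (1, 3) = w → F (1, 6) = w → (n1 : ℂ) * 81 = 56 - F (3, 6) := by
    intro w hw4 hw5 hw6
    rw [← hn1, ← sum1 hF0 hFrep hf1 hw4 hw5 hw6]
    rfl
  have hy' : F (3, 6) = 2 ∨ (F (3, 6) = -25 ∧ F (1, 8) = -1) ∨ (F (3, 6) = -7 ∧ F (1, 8) = -1) ∨
      (F (3, 6) = 20 ∧ F (1, 8) = 2) := by
    have h1 := hnine (1, 8) (by decide)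
    have e : (3 : ZMod 9) • ((1 : ZMod 9), (8 : ZMod 9)) = ((3 : ZMod 9), (6 : ZMod 9)) := by decide
    rw [e] at h1
    exact h1
  have hx : ∀ k : ZMod 9, (3 : ZMod 9) * k = 0 → F (3, 0) = 2 ∨ (F (3, 0) = -25 ∧ F (1, k) = -1) ∨
      (F (3, 0) = -7 ∧ F (1, k) = -1) ∨ (F (3, 0) = 20 ∧ F (1, k) = 2) := by
    intro k hk
    have e : (3 : ZMod 9) • ((1 : ZMod 9), k) = ((3 : ZMod 9), (0 : ZMod 9)) := Prod.ext (by show (3 : ZMod 9) * 1 = 3; decide) hk
    have h1 := hnine (1, k) (by rw [e]; decide)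
    rw [e] at h1
    exact h1
  have hx4 := hx 0 (by decide)
  have hx5 := hx 3 (by decide)
  have hx6 := hx 6 (by decide)
  generalize F (3, 0) = A at *
  generalize F (3, 6) = B at *
  generalize F (1, 8) = y at *
  generalize F (1, 0) = x4 at *
  generalize F (1, 3) = x5 at *
  generalize F (1, 6) = x6 at *
  rcases hx4 with rfl | ⟨rfl, b4⟩ | ⟨rfl, b4⟩ | ⟨rfl, b4⟩
  · rcases hy' with rfl | ⟨rfl, rfl⟩ | ⟨rfl, rfl⟩ | ⟨rfl, rfl⟩
    · have := key n3 54 (h3.trans (by norm_num)); omega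
    · have := key n2 27 (h2.trans (by norm_num)); omega
    · have := key n3 36 (h3.trans (by norm_num)); omega
    · have := key n3 90 (h3.trans (by norm_num)); omega
  · rcases hy' with rfl | ⟨rfl, rfl⟩ | ⟨rfl, rfl⟩ | ⟨rfl, rfl⟩
    · have := key n3 135 (h3.trans (by norm_num)); omega
    · have := key n2 (-135) (h2.trans (by norm_num)); omega
    · have := key n3 117 (h3.trans (by norm_num)); omega
    · have := key n3 171 (h3.trans (by norm_num)); omega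
  · have b5 : x5 = -1 := by norm_num at hx5; exact hx5
    have b6 : x6 = -1 := by norm_num at hx6; exact hx6
    rcases hy' with rfl | ⟨rfl, rfl⟩ | ⟨rfl, rfl⟩ | ⟨rfl, rfl⟩
    · have := key n1 54 ((h1 (-1) b4 b5 b6).trans (by norm_num)); omega
    · have := key n3 27 (h3.trans (by norm_num)); omega
    · have := key n3 63 (h3.trans (by norm_num)); omega
    · have := key n3 117 (h3.trans (by norm_num)); omega
  · have b5 : x5 = 2 := by norm_num at hx5; exact hx5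
    have b6 : x6 = 2 := by norm_num at hx6; exact hx6
    rcases hy' with rfl | ⟨rfl, rfl⟩ | ⟨rfl, rfl⟩ | ⟨rfl, rfl⟩
    · have := key n1 54 ((h1 2 b4 b5 b6).trans (by norm_num)); omega
    · have := key n3 (-54) (h3.trans (by norm_num)); omega
    · have := key n3 (-18) (h3.trans (by norm_num)); omega
    · have := key n3 36 (h3.trans (by norm_num)); omega

end Arith

/-- **There is no `(9 × 9) : 3` as in `SU₃(8)`.** -/
theorem no_rot {x c : ↥(chevE7.group (ZMod 2))} (hx : x ^ 9 = 1) (hcomm : Commute x (c * x * c⁻¹))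
    (hprod : x * (c * x * c⁻¹) * (c * (c * x * c⁻¹) * c⁻¹) = 1) (hne : ¬ Commute c (x ^ 3)) : False := by
  classical
  have hfact : Fact (Nat.Prime 2) := ⟨Nat.prime_two⟩
  obtain ⟨M, hM⟩ := Cfsg.Agent.Blocks.ExistsModular.exists_isPModular Nat.prime_two
  obtain ⟨V, hV⟩ := exists_above hM
  have : CharP (ResidueField V) 2 := hV.charP hM
  obtain ⟨f, hrot, hinj⟩ := setup hx hcomm hprod hne
  obtain ⟨ξ, hξ⟩ : ∃ ξ : ℂ, IsPrimitiveRoot ξ 9 := ⟨_, Complex.isPrimitiveRoot_exp 9 (by norm_num)⟩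
  have hξ9 : ξ ^ 9 = 1 := hξ.pow_eq_one
  have hf1 : 1 + ξ ^ 3 + ξ ^ 6 = 0 := by
    have e1 : ξ ^ 3 ≠ 1 := hξ.pow_ne_one_of_pos_of_lt (by norm_num) (by norm_num)
    have : (ξ ^ 3 - 1) * (1 + ξ ^ 3 + ξ ^ 6) = 0 := by linear_combination hξ9
    exact (mul_eq_zero.1 this).resolve_left (sub_ne_zero.2 e1)
  have hcard : ¬ 2 ∣ Nat.card (Multiplicative Z2) := by
    rw [Nat.card_eq_fintype_card, Fintype.card_multiplicative, Fintype.card_prod, ZMod.card]
    norm_num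
  have hchar : IsCharacter (Multiplicative Z2) (bc 2 ((sg V).comp f)) :=
    Cfsg.Agent.H699.IBrLift.isCharacter_bc hM hV hcard ((sg V).comp f)
  have h9 : ∀ p : Z2, f (Multiplicative.ofAdd p) ^ 9 = 1 := by
    intro p
    rw [← map_pow, ← ofAdd_nsmul]
    have : (9 : ℕ) • p = 0 := by
      rw [← Nat.cast_smul_eq_nsmul (ZMod 9)]
      have h0 : ((9 : ℕ) : ZMod 9) = 0 := by decide
      rw [h0, zero_smul]
    rw [this, ofAdd_zero, map_one]
  have hcube : ∀ p : Z2, f (Multiplicative.ofAdd p) ^ 3 = f (Multiplicative.ofAdd ((3 : ZMod 9) • p)) := by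
    intro p
    have e : (3 : ZMod 9) • p = (3 : ℕ) • p := by
      rw [← Nat.cast_smul_eq_nsmul (ZMod 9)]
      rfl
    rw [e, ofAdd_nsmul, map_pow]
  obtain ⟨F, hF⟩ : ∃ F : Z2 → ℂ, F = fun p => bc 2 (sg V) (f (Multiplicative.ofAdd p)) := ⟨_, rfl⟩
  have hFrot : ∀ p, F (rot p) = F p := by
    intro p
    rw [hF]
    show bc 2 (sg V) (f (Multiplicative.ofAdd (rot p))) = _
    rw [hrot]
    exact bc_conj 2 (sg V) _ _
  have hFu : ∀ (u : ℕ) (p : Z2), Nat.Coprime u 9 → F (((u : ℕ) : ZMod 9) • p) = F p := by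
    intro u p hu
    rw [hF]
    show bc 2 (sg V) (f (Multiplicative.ofAdd _)) = _
    rw [Nat.cast_smul_eq_nsmul, ofAdd_nsmul, map_pow]
    exact bc_unit (h9 p) hu
  have hFi : ∀ i : ℕ, ∀ q, F (rot^[i] q) = F q := by
    intro i
    induction i with
    | zero => intro q; rfl
    | succ i ih => intro q; rw [Function.iterate_succ_apply', hFrot, ih]
  have hFrep : ∀ p, F p = F (rep (cls p)) := by
    intro p
    obtain ⟨u, hu, i, hi, hp⟩ := cls_spec p
    have hu' : Nat.Coprime u 9 := by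
      simp only [List.mem_cons, List.mem_nil_iff, or_false] at hu
      rcases hu with rfl | rfl | rfl | rfl | rfl | rfl <;> norm_num
    conv_lhs => rw [hp]
    rw [hFu u _ hu', hFi]
  refine arith (F := F) (ξ := ξ) ?_ hFrep hf1 ?_ ?_
  · rw [hF]
    show bc 2 (sg V) (f (Multiplicative.ofAdd ((0 : ZMod 9), (0 : ZMod 9)))) = 56
    have : (((0 : ZMod 9), (0 : ZMod 9)) : Z2) = 0 := rfl
    rw [this, ofAdd_zero, map_one]
    exact bc_one
  · intro l
    rw [hF]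
    exact pos hchar hξ9 l
  · intro p hp
    have h1 := nine (V := V) (h9 p) (by rw [hcube]; exact hinj _ hp)
    rw [hcube] at h1
    rw [hF]
    exact h1

end Cfsg.Agent.H949.E7G.Rot
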