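import Cfsg.Agent.H949.E7G.Rot
import Cfsg.Agent.H949.E7G.GTwo

/-!
# `G₂(8)` is not a subgroup of `E₇(2)` (S5935)
-/

set_option autoImplicit false

namespace Cfsg.Agent.H949.E7G.Row

open Cfsg Cfsg.Lie

/-- **`G₂(8)` does not embed in `E₇(2)`.** -/
theorem not_g2_eight {F : Type*} [Field F] [Fintype F] (hF : Fintype.card F = 8)
    (f : ↥(chevG2.group F) →* ↥(chevE7.group (ZMod 2))) (hf : Function.Injective f) : False := by
  obtain ⟨x, c, h3, h4, h5, h6⟩ := GTwo.exists_rot hF
  refine Rot.no_rot (x := f x) (c := f c) ?_ ?_ ?_ ?_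
  · rw [← map_pow, h3, map_one]
  · rw [← map_inv, ← map_mul, ← map_mul]
    exact h4.map f
  · rw [← map_inv, ← map_mul, ← map_mul, ← map_mul, ← map_mul, ← map_mul, ← map_mul, h5, map_one]
  · intro h
    apply h6
    apply hf
    rw [map_mul, map_mul, map_pow]
    exact h

/-- **The row `G₂(8)` of S5935**: for every subgroup, maximal or not. -/
theorem row {F : Type*} [Field F] [Fintype F] (hF : Fintype.card F = 8)
    (H : Subgroup ↥(chevE7.group (ZMod 2))) :
    IsEmpty (↥(Cfsg.generalizedFittingSubgroup ↥H) ≃* ↥(chevG2.group F)) := by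
  refine ⟨fun e => not_g2_eight hF
    (H.subtype.comp ((Cfsg.generalizedFittingSubgroup ↥H).subtype.comp e.symm.toMonoidHom)) ?_⟩
  exact H.subtype_injective.comp ((Subgroup.subtype_injective _).comp e.symm.injective)

end Cfsg.Agent.H949.E7G.Row
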